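import Cfsg.Prelude.Def_DegreeGraph
import Cfsg.Agent.Eq.Def_Blocks
import Cfsg.Agent.Chars.Basic
import Cfsg.Agent.Chars.Basic.Kernel
import Cfsg.Agent.Chars.Basic.Linear
import Cfsg.Agent.Chars.Basic.ClassSum
import Cfsg.Agent.Chars.Induced.Rep

/-!
# Degrees of a simple group of order 6048 with a doubly transitive action on 28 points

From the characters induced from a Borel subgroup `U : C₈` we obtain irreducible degrees divisible
by 14 and 21, and, by counting squares, one divisible by 6.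
-/

set_option autoImplicit false
set_option linter.style.haveILetI false
set_option linter.unusedSectionVars false

namespace CfsgLib.PSU33Deg

open Cfsg CfsgLib.Chars
open scoped ComplexConjugate

universe u

variable {G : Type u} [Group G]

/-- Powers of an eighth root of unity summed over a period. -/
theorem sum_root_eight {ζ : ℂ} (hζ : IsPrimitiveRoot ζ 8) (m : ℕ) :
    ∑ k : Fin 8, ζ ^ (m * (k : ℕ)) = if 8 ∣ m then 8 else 0 := by
  rw [Fin.sum_univ_eq_sum_range (fun k => ζ ^ (m * k)) 8]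
  simp only [pow_mul]
  split_ifs with h
  · simp [(hζ.pow_eq_one_iff_dvd m).2 h]
  · have h1 : ζ ^ m ≠ 1 := fun h' => h ((hζ.pow_eq_one_iff_dvd m).1 h')
    rw [geom_sum_eq h1, ← pow_mul, mul_comm m 8, pow_mul, hζ.pow_eq_one, one_pow, sub_self, zero_div]

/-- The value of a character at a real element of order dividing three. -/
theorem exists_value_of_cube [Finite G] {χ : G → ℂ} (h : IsCharacter G χ) {x : G} (hx : x ^ 3 = 1)
    (hreal : χ x⁻¹ = χ x) {d : ℕ} (hd : χ 1 = d) :
    ∃ α : ℕ, 2 * α ≤ d ∧ χ x = (d : ℂ) - 3 * (α : ℂ) := by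
  classical
  obtain ⟨s, hs, hcard, hval⟩ := exists_roots h x
  have hdvd : orderOf x ∣ 3 := orderOf_dvd_of_pow_eq_one hx
  set ω : ℂ := Complex.exp (2 * Real.pi * Complex.I / 3) with hωd
  have hω : IsPrimitiveRoot ω 3 := Complex.isPrimitiveRoot_exp 3 (by norm_num)
  have hroot : ∀ z ∈ s, z = 1 ∨ z = ω ∨ z = ω ^ 2 := by
    intro z hz
    obtain ⟨c, hc⟩ := hdvd
    have hz3 : z ^ 3 = 1 := by rw [hc, pow_mul, hs z hz, one_pow]
    obtain ⟨i, hi, rfl⟩ := hω.eq_pow_of_pow_eq_one hz3
    interval_cases i <;> simp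
  have hsum : ω ^ 2 = -1 - ω := by
    have h3 := hω.geom_sum_eq_zero (by norm_num)
    simp [Finset.sum_range_succ] at h3
    linear_combination h3
  have key : ∀ t : Multiset ℂ, (∀ z ∈ t, z = 1 ∨ z = ω ∨ z = ω ^ 2) →
      ∃ a b c : ℕ, t.card = a + b + c ∧ t.sum = a + b * ω + c * ω ^ 2 := by
    intro t
    induction t using Multiset.induction with
    | empty => intro _; exact ⟨0, 0, 0, by simp, by simp⟩
    | cons z t ih =>
      intro ht
      obtain ⟨a, b, c, h1, h2⟩ := ih fun y hy => ht y (Multiset.mem_cons_of_mem hy)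
      rcases ht z (Multiset.mem_cons_self z t) with hz | hz | hz
      · exact ⟨a + 1, b, c, by simp [h1]; omega, by simp [h2, hz]; ring⟩
      · exact ⟨a, b + 1, c, by simp [h1]; omega, by simp [h2, hz]; ring⟩
      · exact ⟨a, b, c + 1, by simp [h1]; omega, by simp [h2, hz]; ring⟩
  obtain ⟨a, b, c, h1, h2⟩ := key s hroot
  have h3 := hval 1
  simp only [pow_one, Multiset.map_id'] at h3
  have hre : conj (χ x) = χ x := by rw [conj_eq_map_inv h, hreal]
  have hcw : conj ω = ω ^ 2 := by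
    rw [← Complex.inv_eq_conj (hω.norm'_eq_one (by norm_num))]
    apply inv_eq_of_mul_eq_one_right
    rw [← pow_succ', hω.pow_eq_one]
  have hbc : (b : ℂ) = c := by
    rw [h3, h2] at hre
    simp only [map_add, map_mul, map_pow, map_natCast, hcw] at hre
    have h4 : ω ^ 4 = ω := by
      rw [show (4 : ℕ) = 3 + 1 from rfl, pow_succ, hω.pow_eq_one, one_mul]
    rw [← pow_mul, show 2 * 2 = 4 from rfl, h4, hsum] at hre
    have hne : ω ≠ -1 - ω := by
      intro h
      rw [← hsum] at h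
      have h5 : ω = 1 := by
        have h6 : ω * (ω - 1) = 0 := by linear_combination -h
        rcases mul_eq_zero.1 h6 with h7 | h7
        · exact absurd h7 (hω.ne_zero (by norm_num))
        · linear_combination h7
      exact hω.ne_one (by norm_num) h5
    have h8 : ((b : ℂ) - c) * (2 * ω + 1) = 0 := by linear_combination -hre
    rcases mul_eq_zero.1 h8 with h9 | h9
    · linear_combination h9
    · exact absurd (by linear_combination h9) hne
  have hdc : (d : ℂ) = a + b + c := by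
    rw [← hd, ← hcard, h1]
    push_cast; ring
  refine ⟨b, ?_, ?_⟩
  · have hbc' : b = c := by exact_mod_cast hbc
    have hdc' : d = a + b + c := by exact_mod_cast hdc
    omega
  · rw [h3, h2, hsum, hdc, ← hbc]
    ring

variable [Fintype G]

set_option maxHeartbeats 1600000 in
/-- The degree facts. -/
theorem degree_edges [IsSimpleGroup G] (hcard : Nat.card G = 6048) (B : Subgroup G)
    (hB : Nat.card B = 216) (l : B →* ℂˣ) (hl8 : ∀ b, ((l b : ℂˣ) : ℂ) ^ 8 = 1)
    (hker : Nat.card l.ker = 27) (t : B) {ζ : ℂ} (hζ : IsPrimitiveRoot ζ 8)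
    (hlt : ((l t : ℂˣ) : ℂ) = ζ) (w : G) (htw : (t : G) * w = w * (t : G) ^ 5) (ht8 : t ^ 8 = 1)
    (hcover : ∀ x : G, x ∉ B → ∃ u v : B, x = (u : G) * w * (v : G))
    (hwB : w ∉ B) (hinter : ∀ b : B, w⁻¹ * (b : G) * w ∈ B → ∃ k : Fin 8, b = t ^ (k : ℕ))
    (z a : B) (hz3 : z ^ 3 = 1) (ha3 : a ^ 3 = 1) (hz1 : z ≠ 1) (hlz : l z = 1)
    (hzconj : IsConj (z : G) ((z : G) ^ 2))
    (hcls : ∀ b : B, l b = 1 → b ≠ 1 → b ≠ z → b ≠ z ^ 2 → IsConj (b : G) (a : G))
    (hla : l a = 1) (ha1 : a ≠ 1 ∧ a ≠ z ∧ a ≠ z ^ 2) :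
    (∃ d ∈ charDegrees G, 6 ∣ d) ∧ (∃ d ∈ charDegrees G, 14 ∣ d) ∧
      (∃ d ∈ charDegrees G, 21 ∣ d) := by
  classical
  -- the induced characters
  set θ : ℕ → B → ℂ := fun j b => ((l b : ℂˣ) : ℂ) ^ j with hθ
  have hθc : ∀ j, IsClassFunction B (θ j) := fun j b c => by
    simp only [hθ]
    rw [show l (c * b * c⁻¹) = l b by rw [map_mul, map_mul, map_inv, mul_comm (l c), mul_inv_cancel_right]]
  set Ind : ℕ → G → ℂ := fun j => indFun B (θ j) with hInd
  have hIndchar : ∀ j, IsCharacter G (Ind j) := fun j => by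
    have := CfsgLib.Chars.Induced.isCharacter_indFun_hom B (((Units.coeHom ℂ).comp (l ^ j)))
    simpa [hInd, hθ] using this
  have hIndc : ∀ j, IsClassFunction G (Ind j) := fun j => isClassFunction_of_isCharacter (hIndchar j)
  have hζc : conj ζ = ζ ^ 7 := by
    rw [← Complex.inv_eq_conj (hζ.norm'_eq_one (by norm_num))]
    apply inv_eq_of_mul_eq_one_right
    rw [← pow_succ', hζ.pow_eq_one]
  have hconjl : ∀ b, conj ((l b : ℂˣ) : ℂ) = ((l b : ℂˣ) : ℂ) ^ 7 := fun b => by
    rw [← Complex.inv_eq_conj (Complex.norm_eq_one_of_pow_eq_one (hl8 b) (by norm_num))]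
    apply inv_eq_of_mul_eq_one_right
    rw [← pow_succ', hl8]
  have hlk : ∀ k : ℕ, ((l (t ^ k) : ℂˣ) : ℂ) = ζ ^ k := fun k => by
    rw [map_pow, Units.val_pow_eq_pow_val, hlt]
  have htk : ∀ k : ℕ, w⁻¹ * ((t ^ k : B) : G) * w = ((t ^ (5 * k) : B) : G) := fun k => by
    have h1 : w⁻¹ * (t : G) * w = (t : G) ^ 5 := by rw [mul_assoc, htw, inv_mul_cancel_left]
    rw [Subgroup.coe_pow, Subgroup.coe_pow, pow_mul, ← h1]
    have h2 := conj_pow (i := k) (a := w⁻¹) (b := (t : G))
    rw [inv_inv] at h2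
    exact h2.symm
  -- inner products of the induced characters
  have hGcard : Fintype.card G = 6048 := by rw [← Nat.card_eq_fintype_card, hcard]
  have hBcard : Fintype.card B = 216 := by rw [← Nat.card_eq_fintype_card, hB]
  have hinner : ∀ i j : ℕ, classInner (Ind i) (Ind j) =
      (if 8 ∣ i + 7 * j then 1 else 0) + if 8 ∣ i + 35 * j then 1 else 0 := by
    intro i j
    rw [hInd, CfsgLib.Chars.Induced.classInner_indFun B (θ i) (hIndc j), classInner, hB]
    set S : G → ℂ := fun x => ∑ b : B, θ i b * conj (extendByZero B (θ j) (x⁻¹ * (b : G) * x)) with hS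
    have hsum : ∑ b : B, θ i b * conj (Ind j (b : G)) = (216 : ℂ)⁻¹ * ∑ x : G, S x := by
      simp only [hInd, indFun, hB, map_mul, map_inv₀, map_natCast, map_sum, Finset.mul_sum, hS]
      rw [Finset.sum_comm]
      refine Finset.sum_congr rfl fun x _ => Finset.sum_congr rfl fun b _ => ?_
      push_cast; ring
    have hSinv : ∀ (u v : B) (x : G), S ((u : G) * x * (v : G)) = S x := by
      intro u v x
      simp only [hS]
      refine Fintype.sum_equiv (MulAut.conj u⁻¹).toEquiv _ _ fun b => ?_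
      simp only [MulEquiv.toEquiv_eq_coe, EquivLike.coe_coe, MulAut.conj_apply, inv_inv,
        Subgroup.coe_mul, Subgroup.coe_inv]
      have e1 : θ i (u⁻¹ * b * u) = θ i b := by simpa using hθc i b u⁻¹
      rw [e1]
      congr 2
      have e2 := CfsgLib.Chars.Induced.extendByZero_conj (hθc j) v⁻¹
        (x⁻¹ * ((u : G)⁻¹ * (b : G) * (u : G)) * x)
      simp only [Subgroup.coe_inv, inv_inv] at e2
      rw [← e2]
      congr 1
      group
    have hS1 : S 1 = if 8 ∣ i + 7 * j then 216 else 0 := by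
      simp only [hS, inv_one, one_mul, mul_one, CfsgLib.Chars.Induced.extendByZero_coe]
      have h2 : ∀ b : B, θ i b * conj (θ j b) = ((l b : ℂˣ) : ℂ) ^ (i + 7 * j) := fun b => by
        simp only [hθ, map_pow, hconjl, ← pow_mul, ← pow_add]
      simp only [h2]
      split_ifs with h
      · obtain ⟨c, hc⟩ := h
        simp [hc, pow_mul, hl8, hBcard]
      · set m := i + 7 * j
        have h3 : ∑ b : B, ((l b : ℂˣ) : ℂ) ^ m = ((l t : ℂˣ) : ℂ) ^ m * ∑ b : B, ((l b : ℂˣ) : ℂ) ^ m := by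
          rw [Finset.mul_sum]
          refine (Fintype.sum_equiv (Equiv.mulLeft t) _ _ fun b => ?_).symm
          simp [mul_pow]
        rw [hlt] at h3
        have h4 : ζ ^ m ≠ 1 := fun h' => h ((hζ.pow_eq_one_iff_dvd m).1 h')
        by_contra h5
        exact h4 (mul_right_cancel₀ h5 (h3.symm.trans (one_mul _).symm))
    have hSw : S w = if 8 ∣ i + 35 * j then 8 else 0 := by
      rw [← sum_root_eight hζ]
      simp only [hS]
      have hinj : Function.Injective (fun k : Fin 8 => t ^ (k : ℕ)) := fun k k' h => by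
        have h2 : ζ ^ (k : ℕ) = ζ ^ (k' : ℕ) := by
          rw [← hlk, ← hlk]; exact congrArg (fun b : B => ((l b : ℂˣ) : ℂ)) h
        exact Fin.ext (hζ.pow_inj k.2 k'.2 h2)
      refine (Fintype.sum_of_injective (fun k : Fin 8 => t ^ (k : ℕ)) hinj _ _ ?_ ?_).symm
      · intro b hb
        rw [CfsgLib.Chars.Induced.extendByZero_notMem, map_zero, mul_zero]
        exact fun h => hb (by obtain ⟨k, hk⟩ := hinter b h; exact ⟨k, hk.symm⟩)
      · intro k
        rw [htk, CfsgLib.Chars.Induced.extendByZero_coe]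
        simp only [hθ]
        rw [hlk, hlk, map_pow, map_pow, hζc]
        simp only [← pow_mul, ← pow_add]
        congr 1
        ring
    have hall : ∀ x : G, S x = if x ∈ B then S 1 else S w := by
      intro x
      split_ifs with hx
      · simpa using hSinv ⟨x, hx⟩ 1 1
      · obtain ⟨u, v, rfl⟩ := hcover x hx
        exact hSinv u v w
    have hfB : (Finset.univ.filter (fun x : G => x ∈ B)).card = 216 := by
      rw [← Fintype.card_subtype]
      exact hBcard
    have hfN : (Finset.univ.filter (fun x : G => ¬ x ∈ B)).card = 5832 := by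
      have := Finset.card_filter_add_card_filter_not (s := (Finset.univ : Finset G)) (fun x => x ∈ B)
      rw [hfB, Finset.card_univ, hGcard] at this
      omega
    rw [hsum, Finset.sum_congr rfl (fun x _ => hall x), Finset.sum_ite, Finset.sum_const,
      Finset.sum_const, hfB, hfN, hS1, hSw, nsmul_eq_mul, nsmul_eq_mul]
    push_cast
    split_ifs <;> norm_num
  have hdeg : ∀ j, Ind j 1 = (28 : ℕ) := fun j => by
    simp only [hInd]
    rw [CfsgLib.Chars.Induced.indFun_one_apply]
    have hidx : B.index = 28 := by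
      have := B.card_mul_index
      rw [hB, hcard] at this
      omega
    simp [hθ, hidx]
  -- constituents
  set d : IrrCharacter G → ℕ := fun χ => charDegree (χ : G → ℂ) with hd
  have hd1 : ∀ χ : IrrCharacter G, (χ : G → ℂ) 1 = d χ := fun χ => (coe_charDegree χ).symm
  have hlinear : ∀ χ : IrrCharacter G, d χ = 1 → χ = oneChar G := by
    intro χ hχ
    obtain ⟨f, hf⟩ := exists_linChar_eq χ (by rw [hd1, hχ, Nat.cast_one])
    have hfk : f.ker = ⊤ := by
      refine (IsSimpleGroup.eq_bot_or_eq_top_of_normal f.ker inferInstance).resolve_left fun hbot => ?_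
      have hinj := (MonoidHom.ker_eq_bot_iff f).1 hbot
      have hcomm : IsMulCommutative G := ⟨⟨fun x y => hinj (by rw [map_mul, map_mul, mul_comm])⟩⟩
      letI : CommGroup G := { (inferInstance : Group G) with mul_comm := hcomm.1.1 }
      have hp := IsSimpleGroup.prime_card (α := G)
      rw [hcard] at hp
      exact absurd (hp.eq_one_or_self_of_dvd 2 (by norm_num)) (by norm_num)
    have : f = 1 := MonoidHom.ker_eq_top_iff.1 hfk
    rw [← hf, this]
    rfl
  have hdiv : ∀ χ : IrrCharacter G, d χ ∣ 6048 := fun χ => hcard ▸ charDegree_dvd_card χ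
  set T : ℕ → Finset (IrrCharacter G) := fun j =>
    Finset.univ.filter fun χ => classInner (Ind j) (χ : G → ℂ) ≠ 0 with hT
  -- norm one and norm two
  have hcoeff : ∀ j n, classInner (Ind j) (Ind j) = (n : ℕ) → n ≤ 2 →
      (T j).card = n ∧ (∑ χ ∈ T j, d χ) = 28 ∧
      ∀ χ ∈ T j, classInner (Ind j) (χ : G → ℂ) = 1 := by
    intro j n hn hn2
    obtain ⟨c, hc, hc'⟩ := exists_nat_coeff (hIndchar j)
    have h1 : ∑ χ, c χ * c χ = n := by
      have h := classInner_eq_sum (hIndc j) (Ind j)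
      simp only [hc', map_natCast, hn] at h
      exact_mod_cast h.symm
    have h01 : ∀ χ, c χ = 0 ∨ c χ = 1 := by
      intro χ
      have h : c χ * c χ ≤ n :=
        h1 ▸ Finset.single_le_sum (f := fun ψ => c ψ * c ψ) (fun _ _ => Nat.zero_le _) (Finset.mem_univ χ)
      by_contra hne
      have : 2 ≤ c χ := by omega
      have := Nat.mul_le_mul this this
      omega
    have hmem : ∀ χ, χ ∈ T j ↔ c χ = 1 := fun χ => by
      simp only [hT, Finset.mem_filter, Finset.mem_univ, true_and, hc', Nat.cast_ne_zero]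
      have := h01 χ
      omega
    have hTc : T j = Finset.univ.filter fun χ => c χ = 1 := by
      ext χ
      simp [hmem]
    refine ⟨?_, ?_, fun χ hχ => by rw [hc', (hmem χ).1 hχ, Nat.cast_one]⟩
    · rw [hTc, Finset.card_filter, ← h1]
      refine Finset.sum_congr rfl fun χ _ => ?_
      rcases h01 χ with h | h <;> simp [h]
    · have h2 : (28 : ℕ) = ∑ χ, c χ * d χ := by
        have h := congrFun hc 1
        rw [hdeg] at h
        simp only [Finset.sum_apply, Pi.smul_apply, smul_eq_mul, hd1] at h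
        exact_mod_cast h
      rw [hTc, Finset.sum_filter, h2]
      refine Finset.sum_congr rfl fun χ _ => ?_
      rcases h01 χ with h | h <;> simp [h]
  -- the sum over the kernel
  set U : Finset B := Finset.univ.filter fun b => l b = 1 with hU
  have hUcard : U.card = 27 := by
    rw [← hker, Nat.card_eq_fintype_card, hU, ← Fintype.card_subtype]
    exact Fintype.card_congr (Equiv.subtypeEquivRight fun b => MonoidHom.mem_ker.symm)
  have hz2 : z ^ 2 ≠ 1 ∧ z ^ 2 ≠ z := by
    constructor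
    · intro h
      apply hz1
      calc z = z ^ 3 := by rw [pow_succ, h, one_mul]
        _ = 1 := hz3
    · intro h
      exact hz1 (by simpa [pow_two] using h)
  have hUsum : ∀ χ : IrrCharacter G, ∃ α γ : ℕ, 2 * α ≤ d χ ∧ 2 * γ ≤ d χ ∧
      (∑ b ∈ U, (χ : G → ℂ) b) = ((27 * d χ : ℕ) : ℂ) - ((6 * α + 72 * γ : ℕ) : ℂ) ∧
      (α = 0 → d χ = 1) := by
    intro χ
    have hχ := isCharacter_coe χ
    have hcl := isClassFunction_coe χ
    have hzG : (z : G) ^ 3 = 1 := by rw [← Subgroup.coe_pow, hz3]; rfl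
    have haG : (a : G) ^ 3 = 1 := by rw [← Subgroup.coe_pow, ha3]; rfl
    have hzinv : (z : G)⁻¹ = (z : G) ^ 2 := inv_eq_of_mul_eq_one_right (by rw [← pow_succ']; exact hzG)
    have hz2v : (χ : G → ℂ) ((z ^ 2 : B) : G) = (χ : G → ℂ) z := by
      rw [Subgroup.coe_pow]; exact (eq_of_isConj hcl hzconj).symm
    obtain ⟨α, hα2, hα⟩ := exists_value_of_cube hχ hzG
      (by rw [hzinv, ← Subgroup.coe_pow, hz2v]) (hd1 χ)
    have hainv : l a⁻¹ = 1 ∧ a⁻¹ ≠ 1 ∧ a⁻¹ ≠ z ∧ a⁻¹ ≠ z ^ 2 := by
      refine ⟨by rw [map_inv, hla, inv_one], by simpa using ha1.1, fun h => ha1.2.2 ?_, fun h => ha1.2.1 ?_⟩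
      · rw [← inv_inv a, h]
        exact inv_eq_of_mul_eq_one_right (by rw [← pow_succ']; exact hz3)
      · rw [← inv_inv a, h]
        exact inv_eq_of_mul_eq_one_right (by rw [← pow_succ]; exact hz3)
    obtain ⟨γ, hγ2, hγ⟩ := exists_value_of_cube hχ haG (by
      rw [← Subgroup.coe_inv]
      exact eq_of_isConj hcl (hcls a⁻¹ hainv.1 hainv.2.1 hainv.2.2.1 hainv.2.2.2)) (hd1 χ)
    refine ⟨α, γ, hα2, hγ2, ?_, fun h0 => ?_⟩
    · have hmem1 : (1 : B) ∈ U := by simp [hU]
      have hmemz : z ∈ U.erase 1 := by simp [hU, hlz, hz1]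
      have hmemz2 : z ^ 2 ∈ (U.erase 1).erase z := by simp [hU, hlz, hz2.1, hz2.2]
      rw [← Finset.add_sum_erase _ _ hmem1, ← Finset.add_sum_erase _ _ hmemz,
        ← Finset.add_sum_erase _ _ hmemz2,
        Finset.sum_congr rfl (g := fun _ => (χ : G → ℂ) a) (fun b hb => by
          simp only [Finset.mem_erase, hU, Finset.mem_filter, Finset.mem_univ, true_and] at hb
          exact eq_of_isConj hcl (hcls b hb.2.2.2 hb.2.2.1 hb.2.1 hb.1)),
        Finset.sum_const, Finset.card_erase_of_mem hmemz2, Finset.card_erase_of_mem hmemz,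
        Finset.card_erase_of_mem hmem1, hUcard, hz2v, hα, hγ, OneMemClass.coe_one, hd1]
      push_cast
      ring
    · have h1 : (z : G) ∈ charKer (χ : G → ℂ) := by
        rw [mem_charKer_iff hχ, hα, h0, hd1]; simp
      have htop : charKer (χ : G → ℂ) = ⊤ := by
        refine (IsSimpleGroup.eq_bot_or_eq_top_of_normal (charKer (χ : G → ℂ)) inferInstance).resolve_left
          fun hbot => hz1 (Subtype.ext ?_)
        rw [hbot, Subgroup.mem_bot] at h1
        exact h1
      have hconst : ∀ g, (χ : G → ℂ) g = d χ := fun g => by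
        rw [← hd1]; exact map_eq_map_one_of_mem_charKer (htop ▸ Subgroup.mem_top g)
      have h2 := classInner_self χ
      simp only [classInner, hconst, map_natCast, Finset.sum_const, Finset.card_univ, nsmul_eq_mul,
        ← Nat.card_eq_fintype_card] at h2
      rw [← mul_assoc, inv_mul_cancel₀ natCard_ne_zero, one_mul] at h2
      have : d χ * d χ = 1 := by exact_mod_cast h2
      exact Nat.eq_one_of_mul_eq_one_right this
  have hfix : ∀ χ : IrrCharacter G, ∑ j ∈ Finset.range 8, classInner (Ind j) (χ : G → ℂ) =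
      (27 : ℂ)⁻¹ * ∑ b ∈ U, (χ : G → ℂ) b := by
    intro χ
    have hχ := isCharacter_coe χ
    have hterm : ∀ j, classInner (Ind j) (χ : G → ℂ) =
        (216 : ℂ)⁻¹ * ∑ b : B, ((l b : ℂˣ) : ℂ) ^ j * conj ((χ : G → ℂ) b) := fun j => by
      rw [hInd, CfsgLib.Chars.Induced.classInner_indFun B (θ j) (isClassFunction_coe χ), classInner, hB]
      simp [hθ]
    simp only [hterm, ← Finset.mul_sum]
    rw [Finset.sum_comm]
    have hinner' : ∀ b : B, ∑ j ∈ Finset.range 8, ((l b : ℂˣ) : ℂ) ^ j * conj ((χ : G → ℂ) b) =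
        if l b = 1 then 8 * conj ((χ : G → ℂ) b) else 0 := by
      intro b
      rw [← Finset.sum_mul]
      split_ifs with h
      · simp [h]
      · have h1 : ((l b : ℂˣ) : ℂ) ≠ 1 := fun h' => h (Units.ext h')
        rw [geom_sum_eq h1, hl8, sub_self, zero_div, zero_mul]
    simp only [hinner']
    rw [← Finset.sum_filter, ← hU, ← Finset.mul_sum]
    have : ∑ b ∈ U, conj ((χ : G → ℂ) b) = ∑ b ∈ U, (χ : G → ℂ) b := by
      simp only [conj_eq_map_inv hχ]
      refine Finset.sum_equiv (Equiv.inv B) (fun b => by simp [hU]) fun b _ => by simp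
    rw [this]
    ring
  -- the orbits of exponents
  set R : Finset ℕ := {0, 1, 2, 3, 4, 6} with hR
  have hnorm : ∀ i j, classInner (Ind i) (Ind j) =
      (((if 8 ∣ i + 7 * j then 1 else 0) + if 8 ∣ i + 35 * j then 1 else 0 : ℕ) : ℂ) := fun i j => by
    rw [hinner]; split_ifs <;> norm_num
  have hsame : ∀ i j, 8 ∣ i + 7 * j ∨ 8 ∣ i + 35 * j → ∀ χ : IrrCharacter G,
      classInner (Ind i) (Ind i) = 1 → classInner (Ind j) (Ind j) = 1 →
      classInner (Ind i) (χ : G → ℂ) = classInner (Ind j) (χ : G → ℂ) := by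
    intro i j hij χ hi hj
    have hi' := isIrrCharacter_of_classInner_self (hIndchar i) hi
    have hj' := isIrrCharacter_of_classInner_self (hIndchar j) hj
    by_cases he : Ind i = Ind j
    · rw [he]
    · have h0 := classInner_of_ne (χ := (⟨Ind i, hi'⟩ : IrrCharacter G)) (ψ := ⟨Ind j, hj'⟩)
        (fun h => he (congrArg Subtype.val h))
      rw [show ((⟨Ind i, hi'⟩ : IrrCharacter G) : G → ℂ) = Ind i from rfl] at h0
      change classInner (Ind i) (Ind j) = 0 at h0
      rw [hnorm, Nat.cast_eq_zero] at h0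
      rcases hij with h | h <;> rw [if_pos h] at h0 <;> omega
  have n0 : classInner (Ind 0) (Ind 0) = ((2 : ℕ) : ℂ) := by rw [hnorm]; norm_num
  have n1 : classInner (Ind 1) (Ind 1) = ((1 : ℕ) : ℂ) := by rw [hnorm]; norm_num
  have n2 : classInner (Ind 2) (Ind 2) = ((2 : ℕ) : ℂ) := by rw [hnorm]; norm_num
  have n3 : classInner (Ind 3) (Ind 3) = ((1 : ℕ) : ℂ) := by rw [hnorm]; norm_num
  have n4 : classInner (Ind 4) (Ind 4) = ((2 : ℕ) : ℂ) := by rw [hnorm]; norm_num
  have n5 : classInner (Ind 5) (Ind 5) = ((1 : ℕ) : ℂ) := by rw [hnorm]; norm_num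
  have n6 : classInner (Ind 6) (Ind 6) = ((2 : ℕ) : ℂ) := by rw [hnorm]; norm_num
  have n7 : classInner (Ind 7) (Ind 7) = ((1 : ℕ) : ℂ) := by rw [hnorm]; norm_num
  have hdisj : ∀ i ∈ R, ∀ j ∈ R, i ≠ j → Disjoint (T i) (T j) := by
    intro i hi j hj hij
    rw [Finset.disjoint_left]
    intro χ hχi hχj
    simp only [hT, Finset.mem_filter, Finset.mem_univ, true_and] at hχi hχj
    have h0 : classInner (Ind i) (Ind j) = 0 := by
      simp only [hR, Finset.mem_insert, Finset.mem_singleton] at hi hj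
      rw [hnorm]
      rcases hi with rfl | rfl | rfl | rfl | rfl | rfl <;>
        rcases hj with rfl | rfl | rfl | rfl | rfl | rfl <;>
        first | exact absurd rfl hij | norm_num
    obtain ⟨c, -, hc'⟩ := exists_nat_coeff (hIndchar i)
    obtain ⟨e, -, he'⟩ := exists_nat_coeff (hIndchar j)
    have h := classInner_eq_sum (hIndc i) (Ind j)
    simp only [h0, hc', he', map_natCast] at h
    have h2 : ∑ ψ, c ψ * e ψ = 0 := by exact_mod_cast h.symm
    have h3 := Finset.sum_eq_zero_iff.1 h2 χ (Finset.mem_univ χ)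
    rw [hc', Nat.cast_ne_zero] at hχi
    rw [he', Nat.cast_ne_zero] at hχj
    exact mul_ne_zero hχi hχj h3
  -- odd degrees for the constituents with even exponent
  have hnotT : ∀ χ : IrrCharacter G, ∀ j, χ ∉ T j → classInner (Ind j) (χ : G → ℂ) = 0 := by
    intro χ j h
    simpa [hT] using h
  have hexp : ∀ χ : IrrCharacter G, (∀ i ∈ R, χ ∉ T i) → d χ % 2 = 0 ∧ d χ ≠ 2 ∧ d χ ≠ 4 ∧
      d χ ≠ 8 ∧ d χ ≠ 16 := by
    intro χ hχ
    have hz' : ∑ j ∈ Finset.range 8, classInner (Ind j) (χ : G → ℂ) = 0 := by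
      have hm : ∀ i, i = 0 ∨ i = 1 ∨ i = 2 ∨ i = 3 ∨ i = 4 ∨ i = 6 →
          classInner (Ind i) (χ : G → ℂ) = 0 := fun i hi => hnotT χ i (hχ i (by simpa [hR] using hi))
      simp only [Finset.sum_range_succ, Finset.sum_range_zero, zero_add]
      rw [← hsame 1 5 (Or.inr (by norm_num)) χ (by simpa using n1) (by simpa using n5),
        ← hsame 3 7 (Or.inr (by norm_num)) χ (by simpa using n3) (by simpa using n7),
        hm 0 (by simp), hm 1 (by simp), hm 2 (by simp), hm 3 (by simp), hm 4 (by simp), hm 6 (by simp)]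
      simp
    rw [hfix] at hz'
    obtain ⟨α, γ, hα, hγ, hs, hα0⟩ := hUsum χ
    have h0 : ∑ b ∈ U, (χ : G → ℂ) b = 0 := by
      rcases mul_eq_zero.1 hz' with h | h
      · norm_num at h
      · exact h
    rw [h0] at hs
    have h27 : 27 * d χ = 6 * α + 72 * γ := by
      have : ((27 * d χ : ℕ) : ℂ) = ((6 * α + 72 * γ : ℕ) : ℂ) := sub_eq_zero.1 hs.symm
      exact_mod_cast this
    have hpos : 0 < d χ := charDegree_pos χ
    refine ⟨by omega, ?_, ?_, ?_, ?_⟩ <;> intro h <;> omega
  have hodd : ∀ i, i = 0 ∨ i = 2 ∨ i = 4 ∨ i = 6 → ∀ χ ∈ T i, d χ % 2 = 1 := by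
    intro i hi χ hχ
    have hiR : i ∈ R := by simp [hR]; omega
    have hn : classInner (Ind i) (Ind i) = ((2 : ℕ) : ℂ) := by
      rcases hi with rfl | rfl | rfl | rfl <;> assumption
    have h1 : classInner (Ind i) (χ : G → ℂ) = 1 := (hcoeff i 2 hn le_rfl).2.2 χ hχ
    have h0 : ∀ j ∈ R, j ≠ i → classInner (Ind j) (χ : G → ℂ) = 0 := fun j hj hji =>
      hnotT χ j (Finset.disjoint_right.1 (hdisj j hj i hiR hji) hχ)
    have hs1 : ∑ j ∈ Finset.range 8, classInner (Ind j) (χ : G → ℂ) = 1 := by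
      simp only [Finset.sum_range_succ, Finset.sum_range_zero, zero_add]
      rw [← hsame 1 5 (Or.inr (by norm_num)) χ (by simpa using n1) (by simpa using n5),
        ← hsame 3 7 (Or.inr (by norm_num)) χ (by simpa using n3) (by simpa using n7)]
      rcases hi with rfl | rfl | rfl | rfl <;>
      · simp only [hR, Finset.mem_insert, Finset.mem_singleton] at h0
        rw [h1]
        repeat rw [h0 _ (by norm_num) (by norm_num)]
        simp
    rw [hfix] at hs1
    obtain ⟨α, γ, -, -, hs, -⟩ := hUsum χ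
    rw [hs] at hs1
    have h27 : 27 * d χ = 6 * α + 72 * γ + 27 := by
      have : ((27 * d χ : ℕ) : ℂ) = ((6 * α + 72 * γ + 27 : ℕ) : ℂ) := by
        field_simp at hs1
        push_cast at hs1 ⊢
        linear_combination hs1
      exact_mod_cast this
    omega
  -- degrees of the constituents
  have hone : oneChar G ∈ T 0 := by
    simp only [hT, Finset.mem_filter, Finset.mem_univ, true_and, hInd]
    rw [CfsgLib.Chars.Induced.classInner_indFun B (θ 0) (isClassFunction_coe _)]
    simp [classInner, hθ, hBcard, hB]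
  obtain ⟨c0, s0, -⟩ := hcoeff 0 2 n0 le_rfl
  have hsq0 : ∑ χ ∈ T 0, d χ ^ 2 = 730 := by
    have h1 : d (oneChar G) = 1 := charDegree_eq_of_map_one (by simp)
    rw [← Finset.add_sum_erase _ _ hone] at s0 ⊢
    obtain ⟨x, hx⟩ := Finset.card_eq_one.1
      (show ((T 0).erase (oneChar G)).card = 1 by rw [Finset.card_erase_of_mem hone, c0])
    rw [hx, Finset.sum_singleton, h1] at s0 ⊢
    have : d x = 27 := by omega
    rw [this]
    norm_num
  have hsq2 : ∀ i, i = 2 ∨ i = 4 ∨ i = 6 → ∑ χ ∈ T i, d χ ^ 2 = 490 ∧ ∃ χ ∈ T i, d χ = 21 := by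
    intro i hi
    have hn : classInner (Ind i) (Ind i) = ((2 : ℕ) : ℂ) := by
      rcases hi with rfl | rfl | rfl <;> assumption
    obtain ⟨hc, hsm, -⟩ := hcoeff i 2 hn le_rfl
    obtain ⟨x, y, hxy, he⟩ := Finset.card_eq_two.1 hc
    have hiR : i ∈ R := by simp [hR]; omega
    have hox := hodd i (by omega) x (by simp [he])
    have hoy := hodd i (by omega) y (by simp [he])
    rw [he, Finset.sum_pair hxy] at hsm
    have hne1 : ∀ v ∈ T i, d v ≠ 1 := fun v hv h1 =>
      Finset.disjoint_left.1 (hdisj 0 (by simp [hR]) i hiR (by omega)) hone (hlinear v h1 ▸ hv)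
    have hx1 := hne1 x (by simp [he])
    have hy1 := hne1 y (by simp [he])
    have hdx := hdiv x
    have hdy := hdiv y
    rw [he]
    simp only [Finset.sum_pair hxy, Finset.mem_insert, Finset.mem_singleton, exists_eq_or_imp,
      exists_eq_left]
    have hval : (d x = 7 ∧ d y = 21) ∨ (d x = 21 ∧ d y = 7) := by
      have hy' : d y = 28 - d x := by omega
      rw [hy'] at hdy ⊢
      have hle : d x ≤ 28 := by omega
      generalize d x = n at *
      interval_cases n <;> first | omega | (norm_num at hdx hdy)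
    rcases hval with ⟨a1, a2⟩ | ⟨a1, a2⟩ <;> rw [a1, a2] <;> norm_num
  have hsq1 : ∀ i, i = 1 ∨ i = 3 → ∑ χ ∈ T i, d χ ^ 2 = 784 ∧ ∃ χ ∈ T i, d χ = 28 := by
    intro i hi
    have hn : classInner (Ind i) (Ind i) = ((1 : ℕ) : ℂ) := by rcases hi with rfl | rfl <;> assumption
    obtain ⟨hc, hsm, -⟩ := hcoeff i 1 hn (by norm_num)
    obtain ⟨x, he⟩ := Finset.card_eq_one.1 hc
    rw [he, Finset.sum_singleton] at hsm
    rw [he]
    simp [hsm]
  refine ⟨?_, ?_, ?_⟩
  rotate_left
  · obtain ⟨χ, -, hχ⟩ := (hsq1 1 (by norm_num)).2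
    exact ⟨28, ⟨χ, hχ⟩, by norm_num⟩
  · obtain ⟨χ, -, hχ⟩ := (hsq2 2 (by norm_num)).2
    exact ⟨21, ⟨χ, hχ⟩, dvd_rfl⟩
  by_contra hno
  have hno' : ∀ χ : IrrCharacter G, ¬ 6 ∣ d χ := fun χ h => hno ⟨d χ, ⟨χ, rfl⟩, h⟩
  set S := R.biUnion T with hSdef
  have hSsum : ∑ χ ∈ S, d χ ^ 2 = 3768 := by
    rw [hSdef, Finset.sum_biUnion (fun i hi j hj => hdisj i hi j hj), hR]
    simp only [Finset.sum_insert, Finset.mem_insert, Finset.mem_singleton, Finset.sum_singleton,
      Nat.reduceEqDiff, or_self, not_false_eq_true]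
    rw [hsq0, (hsq1 1 (by norm_num)).1, (hsq2 2 (by norm_num)).1, (hsq1 3 (by norm_num)).1,
      (hsq2 4 (by norm_num)).1, (hsq2 6 (by norm_num)).1]
    norm_num
  have hrest : ∑ χ ∈ Sᶜ, d χ ^ 2 = 2280 := by
    have h := Finset.sum_compl_add_sum S fun χ => d χ ^ 2
    rw [hSsum, sum_charDegree_sq (G := G), hcard] at h
    omega
  have hvals : ∀ χ ∈ Sᶜ, d χ = 14 ∨ d χ = 28 ∨ d χ = 32 := by
    intro χ hχ
    have hnot : ∀ i ∈ R, χ ∉ T i := fun i hi h =>
      Finset.mem_compl.1 hχ (Finset.mem_biUnion.2 ⟨i, hi, h⟩)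
    obtain ⟨h2, h2', h4, h8, h16⟩ := hexp χ hnot
    have h6 := hno' χ
    have hdd := hdiv χ
    have hle : d χ ≤ 47 := by
      have h := Finset.single_le_sum (f := fun χ => d χ ^ 2) (fun _ _ => Nat.zero_le _) hχ
      rw [hrest] at h
      by_contra hlt
      have : 48 ^ 2 ≤ d χ ^ 2 := Nat.pow_le_pow_left (by omega) 2
      beta_reduce at h
      norm_num at this
      omega
    have hpos : 0 < d χ := charDegree_pos χ
    generalize d χ = n at *
    interval_cases n <;> first | omega | (norm_num at hdd)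
  have hcomb : ∀ s : Finset (IrrCharacter G), (∀ χ ∈ s, d χ = 14 ∨ d χ = 28 ∨ d χ = 32) →
      ∃ x y v : ℕ, ∑ χ ∈ s, d χ ^ 2 = 196 * x + 784 * y + 1024 * v := by
    intro s
    induction s using Finset.induction with
    | empty => intro _; exact ⟨0, 0, 0, by simp⟩
    | insert χ s hχ ih =>
      intro hs
      obtain ⟨x, y, v, h⟩ := ih fun ψ hψ => hs ψ (Finset.mem_insert_of_mem hψ)
      rw [Finset.sum_insert hχ, h]
      rcases hs χ (Finset.mem_insert_self χ s) with e | e | e <;> rw [e]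
      · exact ⟨x + 1, y, v, by omega⟩
      · exact ⟨x, y + 1, v, by omega⟩
      · exact ⟨x, y, v + 1, by omega⟩
  obtain ⟨x, y, v, h⟩ := hcomb Sᶜ hvals
  omega

end CfsgLib.PSU33Deg
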