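import Cfsg.Prelude.Def_DegreeGraph
import Cfsg.Agent.Eq.Def_Blocks
import Cfsg.Agent.Chars.Basic
import Cfsg.Agent.Chars.Induced.Rep
import Mathlib.GroupTheory.SemidirectProduct
import Mathlib.Analysis.SpecialFunctions.Complex.CircleAddChar
import Mathlib.Analysis.Fourier.FiniteAbelian.PontryaginDuality
import Mathlib.FieldTheory.Finite.GaloisField
import Mathlib.GroupTheory.Solvable

/-!
# A solvable group of order 6048 with an irreducible character of degree 42

The affine group of the ring `ZMod 9 × 𝔽₈ × ZMod 2`.
-/

set_option autoImplicit false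
set_option linter.style.haveILetI false

namespace CfsgLib.PSU33Deg

open Cfsg CfsgLib.Chars
open scoped ComplexConjugate

/-- Multiplication by a unit, as an automorphism of the additive group written multiplicatively. -/
def unitAut (R : Type) [CommRing R] : Rˣ →* MulAut (Multiplicative R) where
  toFun u :=
    { toFun := fun x => Multiplicative.ofAdd ((u : R) * x.toAdd)
      invFun := fun x => Multiplicative.ofAdd (((u⁻¹ : Rˣ) : R) * x.toAdd)
      left_inv := fun x => by simp [← mul_assoc]
      right_inv := fun x => by simp [← mul_assoc]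
      map_mul' := fun x y => by simp [mul_add] }
  map_one' := by
    ext x
    simp
  map_mul' u v := by
    ext x
    simp [mul_assoc]

/-- The affine group of a commutative ring. -/
abbrev AffRing (R : Type) [CommRing R] : Type := Multiplicative R ⋊[unitAut R] Rˣ

/-- Affine groups are finite for finite rings. -/
theorem finite_affRing (R : Type) [CommRing R] [Finite R] : Finite (AffRing R) :=
  Finite.of_equiv _ SemidirectProduct.equivProd.symm

theorem isSolvable_affRing (R : Type) [CommRing R] : IsSolvable (AffRing R) :=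
  solvable_of_ker_le_range (SemidirectProduct.inl (φ := unitAut R)) SemidirectProduct.rightHom
    (by rw [SemidirectProduct.range_inl_eq_ker_rightHom])

/-- An additive character with trivial stabiliser gives an irreducible character of degree the
number of units. -/
theorem exists_degree_units (R : Type) [CommRing R] [Fintype R] (ψ : AddChar R ℂ)
    (hψ : ∀ u : Rˣ, (∀ x : R, ψ ((u : R) * x) = ψ x) → u = 1) :
    Nat.card Rˣ ∈ charDegrees (AffRing R) := by
  classical
  haveI := finite_affRing R
  haveI := Fintype.ofFinite (AffRing R)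
  let N : Subgroup (AffRing R) := (SemidirectProduct.rightHom (φ := unitAut R)).ker
  haveI : N.Normal := MonoidHom.normal_ker _
  haveI : Fintype N := Fintype.ofFinite _
  have hright : ∀ n : N, n.1.right = 1 := fun n => n.2
  let lam : N →* ℂ :=
    { toFun := fun n => ψ n.1.left.toAdd
      map_one' := by simp
      map_mul' := fun a b => by
        simp only [Subgroup.coe_mul, SemidirectProduct.mul_left, hright a, map_one, MulAut.one_apply,
          toAdd_mul, AddChar.map_add_eq_mul] }
  let e : R ≃ N :=
    { toFun := fun r => ⟨SemidirectProduct.inl (Multiplicative.ofAdd r), by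
        simp [N, MonoidHom.mem_ker]⟩
      invFun := fun n => n.1.left.toAdd
      left_inv := fun r => by simp
      right_inv := fun n => by
        apply Subtype.ext
        ext
        · simp
        · simp [hright n] }
  have hθ : IsCharacter (AffRing R) (indFun N fun n => lam n) :=
    CfsgLib.Chars.Induced.isCharacter_indFun_hom N lam
  have hconj : ∀ (x : AffRing R) (n : N), CfsgLib.Chars.Induced.conjFun N x (fun m => lam m) n =
      ψ (((x.right⁻¹ : Rˣ) : R) * n.1.left.toAdd) := by
    intro x n
    show ψ (((MulAut.conjNormal x)⁻¹ n : N) : AffRing R).left.toAdd = _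
    congr 1
    rw [MulAut.conjNormal_inv_apply]
    simp [SemidirectProduct.mul_left, SemidirectProduct.inv_left, SemidirectProduct.inv_right,
      hright n, unitAut]
  have hcardN : Nat.card N = Nat.card R := (Nat.card_congr e).symm
  have hinner : ∀ x : AffRing R, classInner (CfsgLib.Chars.Induced.conjFun N x fun m => lam m)
      (fun m => lam m) = if x.right = 1 then 1 else 0 := by
    intro x
    simp only [classInner, hconj, hcardN]
    rw [← Equiv.sum_comp e]
    let χ : AddChar R ℂ := ψ.mulShift (((x.right⁻¹ : Rˣ) : R) - 1)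
    have h1 : ∀ r : R, ψ (((x.right⁻¹ : Rˣ) : R) * (e r).1.left.toAdd) * conj (lam (e r)) = χ r := by
      intro r
      show ψ (((x.right⁻¹ : Rˣ) : R) * r) * conj (ψ r) = ψ ((((x.right⁻¹ : Rˣ) : R) - 1) * r)
      rw [← AddChar.map_neg_eq_conj, ← AddChar.map_add_eq_mul]
      congr 1
      ring
    simp only [h1]
    rw [AddChar.sum_eq_ite]
    have hiff : χ = 0 ↔ x.right = 1 := by
      constructor
      · intro h
        have h2 : x.right⁻¹ = 1 := hψ _ fun r => by
          have h3 : χ r = 1 := by rw [h]; rfl
          have h4 : ((x.right⁻¹ : Rˣ) : R) * r = (((x.right⁻¹ : Rˣ) : R) - 1) * r + r := by ring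
          rw [h4, AddChar.map_add_eq_mul]
          rw [show ψ ((((x.right⁻¹ : Rˣ) : R) - 1) * r) = χ r from rfl, h3, one_mul]
        simpa using h2
      · intro h
        refine DFunLike.ext _ _ fun r => ?_
        show ψ _ = _
        simp [h]
    by_cases hx : x.right = 1
    · rw [if_pos (hiff.2 hx), if_pos hx, Nat.card_eq_fintype_card,
        inv_mul_cancel₀ (Nat.cast_ne_zero.2 Fintype.card_ne_zero)]
    · rw [if_neg (fun h => hx (hiff.1 h)), if_neg hx, mul_zero]
  have hnorm : classInner (indFun N fun n => lam n) (indFun N fun n => lam n) = 1 := by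
    rw [CfsgLib.Chars.Induced.classInner_indFun_indFun_normal]
    simp only [hinner, Finset.sum_boole]
    have : (Finset.univ.filter fun x : AffRing R => x.right = 1).card = Nat.card N := by
      rw [← Fintype.card_subtype, ← Nat.card_eq_fintype_card]
      exact Nat.card_congr (Equiv.subtypeEquivRight fun x => by simp [N, MonoidHom.mem_ker])
    rw [this, inv_mul_cancel₀ (Nat.cast_ne_zero.2 Nat.card_pos.ne')]
  refine ⟨⟨_, isIrrCharacter_of_classInner_self hθ hnorm⟩, charDegree_eq_of_map_one ?_⟩
  show indFun N (fun n => lam n) 1 = _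
  rw [CfsgLib.Chars.Induced.indFun_one_apply]
  have hidx : N.index = Nat.card Rˣ := by
    rw [Subgroup.index_eq_card]
    exact Nat.card_congr (QuotientGroup.quotientKerEquivOfSurjective _
      SemidirectProduct.rightHom_surjective).toEquiv
  simp [hidx]

theorem units_two : ∀ v : (ZMod 2)ˣ, (v : ZMod 2) = 1 := by decide

/-- A solvable group of order 6048 with an irreducible character of degree 42. -/
theorem exists_solvable_degree_42 : ∃ (H : Type) (_ : Group H) (_ : Fintype H),
    Group.IsSolvable H ∧ Nat.card H = 6048 ∧ 42 ∈ charDegrees H := by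
  classical
  haveI := Fact.mk Nat.prime_two
  let K := GaloisField 2 3
  haveI : Fintype K := Fintype.ofFinite K
  have hK : Nat.card K = 8 := by rw [GaloisField.card 2 3 (by norm_num)]; norm_num
  have hKu : Nat.card Kˣ = 7 := by rw [Nat.card_units, hK]
  let R := ZMod 9 × K × ZMod 2
  have hRu : Nat.card Rˣ = 42 := by
    rw [Nat.card_congr (MulEquiv.prodUnits).toEquiv, Nat.card_prod,
      Nat.card_congr (MulEquiv.prodUnits (M := K) (N := ZMod 2)).toEquiv, Nat.card_prod, hKu,
      Nat.card_eq_fintype_card, Nat.card_eq_fintype_card, ZMod.card_units_eq_totient,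
      ZMod.card_units_eq_totient]
    decide
  obtain ⟨ψ2, hψ2⟩ := (AddChar.exists_apply_ne_zero (a := (1 : K))).2 one_ne_zero
  let ψ1 : AddChar (ZMod 9) ℂ := ZMod.stdAddChar
  let ψ : AddChar R ℂ :=
    { toFun := fun r => ψ1 r.1 * ψ2 r.2.1
      map_zero_eq_one' := by show ψ1 0 * ψ2 0 = 1; simp
      map_add_eq_mul' := fun a b => by
        show ψ1 (a.1 + b.1) * ψ2 (a.2.1 + b.2.1) = _
        rw [AddChar.map_add_eq_mul, AddChar.map_add_eq_mul]
        ring }
  have hstab : ∀ u : Rˣ, (∀ x : R, ψ ((u : R) * x) = ψ x) → u = 1 := by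
    intro u hu
    have hu1 : (u : R).1 = 1 := by
      by_contra hne
      refine ZMod.isPrimitive_stdAddChar 9 (sub_ne_zero.2 hne) (DFunLike.ext _ _ fun x => ?_)
      have h := hu (x, 0, 0)
      change ψ1 ((u : R).1 * x) * ψ2 ((u : R).2.1 * 0) = ψ1 x * ψ2 0 at h
      simp only [mul_zero, AddChar.map_zero_eq_one, mul_one] at h
      show ψ1 (((u : R).1 - 1) * x) = 1
      rw [sub_mul, one_mul, AddChar.map_sub_eq_div, h, div_self (AddChar.val_isUnit ψ1 x).ne_zero]
    have hu2 : (u : R).2.1 = 1 := by
      by_contra hne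
      refine hψ2 ?_
      have h := hu (0, ((u : R).2.1 - 1)⁻¹, 0)
      change ψ1 ((u : R).1 * 0) * ψ2 ((u : R).2.1 * _) = ψ1 0 * ψ2 _ at h
      simp only [mul_zero, AddChar.map_zero_eq_one, one_mul] at h
      have h2 : (u : R).2.1 * ((u : R).2.1 - 1)⁻¹ - ((u : R).2.1 - 1)⁻¹ = 1 := by
        rw [← sub_one_mul, mul_inv_cancel₀ (sub_ne_zero.2 hne)]
      rw [← h2, AddChar.map_sub_eq_div, h, div_self (AddChar.val_isUnit ψ2 _).ne_zero]
    apply Units.ext
    refine Prod.ext hu1 (Prod.ext hu2 ?_)
    exact units_two (Units.map (((RingHom.snd K (ZMod 2)).comp (RingHom.snd (ZMod 9) _)).toMonoidHom) u)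
  haveI := finite_affRing R
  refine ⟨AffRing R, inferInstance, Fintype.ofFinite _, isSolvable_affRing R, ?_,
    hRu ▸ exists_degree_units R ψ hstab⟩
  rw [SemidirectProduct.card, hRu, Nat.card_congr Multiplicative.toAdd, Nat.card_prod, Nat.card_prod,
    hK, Nat.card_zmod, Nat.card_zmod]

end CfsgLib.PSU33Deg
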